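import Cfsg.Agent.AltPairs.Count
import Cfsg.Agent.PermChar.Basic
import Cfsg.Agent.SL2Char.Idem
import Cfsg.Agent.CharBasics.Ortho

/-!
# The irreducible characters on two-element sets and on the exterior square of a four-fold transitive action
-/

set_option autoImplicit false

namespace CfsgLib.AltPairs

open Cfsg CfsgLib.CharBasics
open scoped Pointwise

variable (G : Type*) [Group G] (α : Type*) [Fintype α] [DecidableEq α] [MulAction G α]

def cTop : (Fin 1 → Fin 1 → Bool) → Bool := fun _ => true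
def cNe : (Fin 2 → Fin 2 → Bool) → Bool := fun R => !(R 0 1)
def sw : Fin 2 → Fin 2 := ![1, 0]

/-- Fixed points. -/
noncomputable def nF (g : G) : ℕ := cnt α cTop id g
/-- Fixed ordered pairs. -/
noncomputable def nP (g : G) : ℕ := cnt α cNe id g
/-- Interchanged ordered pairs. -/
noncomputable def nT (g : G) : ℕ := cnt α cNe sw g

/-- The character on two-element sets minus the character on points. -/
noncomputable def chi2 (g : G) : ℂ := ((nP G α g : ℂ) + nT G α g) / 2 - nF G α g
/-- The exterior square of the natural constituent. -/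
noncomputable def chi3 (g : G) : ℂ := ((nP G α g : ℂ) - nT G α g) / 2 - nF G α g + 1

variable {G α}

theorem nF_eq (g : G) : nF G α g = Nat.card (MulAction.fixedBy α g) :=
  Nat.card_congr ⟨fun q => ⟨q.1 0, q.2.2 0⟩, fun a => ⟨fun _ => a.1, rfl, fun _ => a.2⟩,
    fun q => Subtype.ext (funext fun i => by rw [Subsingleton.elim i 0]), fun a => rfl⟩

theorem pair_cond (q : Fin 2 → α) : cNe (pat q) = true ↔ q 0 ≠ q 1 := by
  simp [cNe, pat]

theorem nT_eq (g : G) : nT G α g = Nat.card {a : α // g • g • a = a ∧ g • a ≠ a} :=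
  Nat.card_congr ⟨fun q => ⟨q.1 0, by
      have h0 : g • q.1 0 = q.1 1 := q.2.2 0
      have h1 : g • q.1 1 = q.1 0 := q.2.2 1
      exact ⟨by rw [h0, h1], by rw [h0]; exact Ne.symm ((pair_cond q.1).1 q.2.1)⟩⟩,
    fun a => ⟨![a.1, g • a.1], (pair_cond _).2 (by simpa using Ne.symm a.2.2), fun i => by
      fin_cases i
      · simp [sw]
      · simpa [sw] using a.2.1⟩,
    fun q => Subtype.ext (funext fun i => by
      fin_cases i
      · simp
      · simpa [sw] using q.2.2 0), fun a => rfl⟩

theorem nP_add_nF (g : G) : nP G α g + nF G α g = nF G α g * nF G α g := by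
  classical
  set s : Finset α := Finset.univ.filter fun a => g • a = a with hs
  have hF : nF G α g = s.card := by
    rw [nF_eq, hs, ← Fintype.card_subtype, ← Nat.card_eq_fintype_card]; rfl
  have hP : nP G α g = s.offDiag.card := by
    rw [nP, cnt, ← Nat.card_eq_finsetCard]
    refine Nat.card_congr ⟨fun q => ⟨(q.1 0, q.1 1), Finset.mem_offDiag.2 ⟨by simpa [hs] using q.2.2 0,
      by simpa [hs] using q.2.2 1, (pair_cond q.1).1 q.2.1⟩⟩,
      fun p => ⟨![p.1.1, p.1.2], (pair_cond _).2 (Finset.mem_offDiag.1 p.2).2.2, fun i => ?_⟩, ?_, fun p => rfl⟩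
    · fin_cases i
      · exact (Finset.mem_filter.1 (Finset.mem_offDiag.1 p.2).1).2
      · exact (Finset.mem_filter.1 (Finset.mem_offDiag.1 p.2).2.1).2
    · exact fun q => Subtype.ext (funext fun i => by fin_cases i <;> rfl)
  rw [hF, hP, Finset.offDiag_card, Nat.sub_add_cancel (Nat.le_mul_self _)]

theorem two_mul_piChar_pairs (g : G) :
    2 * Nat.card (MulAction.fixedBy (Set.powersetCard α 2) g) = nP G α g + nT G α g := by
  classical
  set S : Finset (Finset α) := Finset.univ.filter fun s => s.card = 2 ∧ g • s = s with hS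
  have h1 : Nat.card (MulAction.fixedBy (Set.powersetCard α 2) g) = S.card := by
    rw [← Nat.card_eq_finsetCard]
    refine Nat.card_congr ⟨fun s => ⟨(s.1 : Finset α), Finset.mem_filter.2 ⟨Finset.mem_univ _, s.1.2, ?_⟩⟩,
      fun s => ⟨⟨s.1, (Finset.mem_filter.1 s.2).2.1⟩, Subtype.ext ?_⟩, fun s => rfl, fun s => rfl⟩
    · exact (congrArg Subtype.val s.2 :)
    · exact (Finset.mem_filter.1 s.2).2.2
  set A : Finset (Fin 2 → α) := Finset.univ.filter fun q => q 0 ≠ q 1 ∧ g • q 0 = q 0 ∧ g • q 1 = q 1 with hA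
  set B : Finset (Fin 2 → α) := Finset.univ.filter fun q => q 0 ≠ q 1 ∧ g • q 0 = q 1 ∧ g • q 1 = q 0 with hB
  have hPc : nP G α g = A.card := by
    rw [nP, cnt, hA, ← Fintype.card_subtype, ← Nat.card_eq_fintype_card]
    exact Nat.card_congr (Equiv.subtypeEquivRight fun q => by simp [pair_cond, Fin.forall_fin_two])
  have hTc : nT G α g = B.card := by
    rw [nT, cnt, hB, ← Fintype.card_subtype, ← Nat.card_eq_fintype_card]
    exact Nat.card_congr (Equiv.subtypeEquivRight fun q => by simp [pair_cond, Fin.forall_fin_two, sw])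
  have hdisj : Disjoint A B := Finset.disjoint_filter.2 fun q _ h h' => h.1 (h.2.1.symm.trans h'.2.1)
  rw [hPc, hTc, ← Finset.card_union_of_disjoint hdisj, h1,
    Finset.card_eq_sum_card_fiberwise (f := fun q : Fin 2 → α => ({q 0, q 1} : Finset α)) (t := S)]
  · rw [Finset.sum_congr rfl (g := fun _ => 2), Finset.sum_const, smul_eq_mul, mul_comm]
    intro s hs
    obtain ⟨hs2, hsg⟩ := (Finset.mem_filter.1 hs).2
    obtain ⟨a, b, hab, rfl⟩ := Finset.card_eq_two.1 hs2
    have himg : ({g • a, g • b} : Finset α) = {a, b} := by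
      rw [← hsg, Finset.smul_finset_insert, Finset.smul_finset_singleton]
    rw [Finset.card_eq_two]
    refine ⟨![a, b], ![b, a], fun h => hab (by simpa using congrFun h 0), ?_⟩
    have ha : g • a = a ∨ g • a = b := by
      simpa using himg.le (Finset.mem_insert_self (g • a) _)
    have hb : g • b = a ∨ g • b = b := by
      simpa using himg.le (Finset.mem_insert_of_mem (Finset.mem_singleton_self (g • b)))
    have hne : g • a ≠ g • b := fun h => hab (smul_left_cancel g h)
    ext q
    simp only [hA, hB, Finset.mem_filter, Finset.mem_union, Finset.mem_univ, true_and, Finset.mem_insert,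
      Finset.mem_singleton]
    constructor
    · rintro ⟨h, he⟩
      have hq0 : q 0 = a ∨ q 0 = b := by simpa using he.le (Finset.mem_insert_self (q 0) _)
      have hq1 : q 1 = a ∨ q 1 = b := by
        simpa using he.le (Finset.mem_insert_of_mem (Finset.mem_singleton_self (q 1)))
      have hq : q 0 ≠ q 1 := h.elim (·.1) (·.1)
      rcases hq0 with h0 | h0 <;> rcases hq1 with h1 | h1
      · exact absurd (h0.trans h1.symm) hq
      · exact Or.inl (funext fun i => by fin_cases i <;> simp [h0, h1])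
      · exact Or.inr (funext fun i => by fin_cases i <;> simp [h0, h1])
      · exact absurd (h0.trans h1.symm) hq
    · rintro (rfl | rfl)
      · refine ⟨?_, by simp⟩
        rcases ha with ha | ha <;> rcases hb with hb | hb
        · exact absurd (ha.trans hb.symm) hne
        · exact Or.inl ⟨by simpa using hab, by simpa using ha, by simpa using hb⟩
        · exact Or.inr ⟨by simpa using hab, by simpa using ha, by simpa using hb⟩
        · exact absurd (ha.trans hb.symm) hne
      · refine ⟨?_, by simp [Finset.pair_comm]⟩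
        rcases ha with ha | ha <;> rcases hb with hb | hb
        · exact absurd (ha.trans hb.symm) hne
        · exact Or.inl ⟨by simpa using hab.symm, by simpa using hb, by simpa using ha⟩
        · exact Or.inr ⟨by simpa using hab.symm, by simpa using hb, by simpa using ha⟩
        · exact absurd (ha.trans hb.symm) hne
  · intro q hq
    have hq' : q 0 ≠ q 1 ∧ ((g • q 0 = q 0 ∧ g • q 1 = q 1) ∨ (g • q 0 = q 1 ∧ g • q 1 = q 0)) := by
      rcases Finset.mem_union.1 hq with h | h
      · exact ⟨(Finset.mem_filter.1 h).2.1, Or.inl (Finset.mem_filter.1 h).2.2⟩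
      · exact ⟨(Finset.mem_filter.1 h).2.1, Or.inr (Finset.mem_filter.1 h).2.2⟩
    refine Finset.mem_filter.2 ⟨Finset.mem_univ _, Finset.card_pair hq'.1, ?_⟩
    rw [Finset.smul_finset_insert, Finset.smul_finset_singleton]
    rcases hq'.2 with ⟨e, e'⟩ | ⟨e, e'⟩
    · rw [e, e']
    · rw [e, e', Finset.pair_comm]

variable [Fintype G] [MulAction.IsMultiplyPretransitive G α 4] (h4 : 4 ≤ Fintype.card α)

include h4 in
theorem sums :
    (∑ g : G, nF G α g = Fintype.card G) ∧ (∑ g : G, nP G α g = Fintype.card G) ∧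
    (∑ g : G, nT G α g = Fintype.card G) ∧ (∑ g : G, nF G α g * nF G α g = 2 * Fintype.card G) ∧
    (∑ g : G, nF G α g * nP G α g = 3 * Fintype.card G) ∧ (∑ g : G, nF G α g * nT G α g = Fintype.card G) ∧
    (∑ g : G, nP G α g * nP G α g = 7 * Fintype.card G) ∧ (∑ g : G, nP G α g * nT G α g = Fintype.card G) ∧
    (∑ g : G, nT G α g * nT G α g = 3 * Fintype.card G) := by
  simp only [nF, nP, nT, cnt_mul_cnt]
  have hn : npat cTop id = 1 ∧ npat cNe id = 1 ∧ npat cNe sw = 1 := by decide +kernel
  refine ⟨?_, ?_, ?_, ?_, ?_, ?_, ?_, ?_, ?_⟩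
  all_goals rw [sum_cnt h4 (by simp) _ _]
  · rw [hn.1, mul_one]
  · rw [hn.2.1, mul_one]
  · rw [hn.2.2, mul_one]
  · exact (Nat.mul_comm _ _).trans (congrArg (fun k => k * Fintype.card G) (by decide +kernel))
  · exact (Nat.mul_comm _ _).trans (congrArg (fun k => k * Fintype.card G) (by decide +kernel))
  · exact (congrArg (fun k => Fintype.card G * k) (by decide +kernel : _ = 1)).trans (Nat.mul_one _)
  · exact (Nat.mul_comm _ _).trans (congrArg (fun k => k * Fintype.card G) (by decide +kernel))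
  · exact (congrArg (fun k => Fintype.card G * k) (by decide +kernel : _ = 1)).trans (Nat.mul_one _)
  · exact (Nat.mul_comm _ _).trans (congrArg (fun k => k * Fintype.card G) (by decide +kernel))

theorem natCast_conj (n : ℕ) : (starRingEnd ℂ) (n : ℂ) = n := Complex.conj_natCast n

include h4 in
theorem norms : classInner (chi2 G α) (chi2 G α) = 1 ∧ classInner (chi3 G α) (chi3 G α) = 1 := by
  obtain ⟨s1, s2, s3, s4, s5, s6, s7, s8, s9⟩ := sums (G := G) (α := α) h4
  have hG : (Fintype.card G : ℂ) ≠ 0 := Nat.cast_ne_zero.2 Fintype.card_ne_zero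
  have c1 := congrArg (Nat.cast : ℕ → ℂ) s1
  have c2 := congrArg (Nat.cast : ℕ → ℂ) s2
  have c3 := congrArg (Nat.cast : ℕ → ℂ) s3
  have c4 := congrArg (Nat.cast : ℕ → ℂ) s4
  have c5 := congrArg (Nat.cast : ℕ → ℂ) s5
  have c6 := congrArg (Nat.cast : ℕ → ℂ) s6
  have c7 := congrArg (Nat.cast : ℕ → ℂ) s7
  have c8 := congrArg (Nat.cast : ℕ → ℂ) s8
  have c9 := congrArg (Nat.cast : ℕ → ℂ) s9
  push_cast at c1 c2 c3 c4 c5 c6 c7 c8 c9
  constructor
  · rw [classInner_eq, Nat.card_eq_fintype_card, inv_mul_eq_one₀ hG]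
    rw [Finset.sum_congr rfl (g := fun g => (1 / 4 : ℂ) * ((nP G α g : ℂ) * nP G α g) +
        (1 / 4) * ((nT G α g : ℂ) * nT G α g) + (nF G α g : ℂ) * nF G α g +
        (1 / 2) * ((nP G α g : ℂ) * nT G α g) - (nF G α g : ℂ) * nP G α g - (nF G α g : ℂ) * nT G α g) fun g _ => by
      simp only [chi2, map_sub, map_div₀, map_add, natCast_conj, map_ofNat]; ring]
    simp only [Finset.sum_add_distrib, Finset.sum_sub_distrib, ← Finset.mul_sum, c4, c5, c6, c7, c8, c9]
    ring
  · rw [classInner_eq, Nat.card_eq_fintype_card, inv_mul_eq_one₀ hG]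
    rw [Finset.sum_congr rfl (g := fun g => (1 / 4 : ℂ) * ((nP G α g : ℂ) * nP G α g) +
        (1 / 4) * ((nT G α g : ℂ) * nT G α g) + (nF G α g : ℂ) * nF G α g + 1 -
        (1 / 2) * ((nP G α g : ℂ) * nT G α g) - (nF G α g : ℂ) * nP G α g + (nF G α g : ℂ) * nT G α g +
        (nP G α g : ℂ) - (nT G α g : ℂ) - 2 * (nF G α g : ℂ)) fun g _ => by
      simp only [chi3, map_sub, map_div₀, map_add, map_one, natCast_conj, map_ofNat]; ring]
    simp only [Finset.sum_add_distrib, Finset.sum_sub_distrib, ← Finset.mul_sum, c1, c2, c3, c4, c5, c6, c7, c8, c9,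
      Finset.sum_const, Finset.card_univ, nsmul_eq_mul, mul_one]
    ring

theorem piChar_points (g : G) : PermChar.piChar G α g = (nF G α g : ℂ) := by rw [nF_eq]; rfl

theorem piChar_square (g : G) : PermChar.piChar G (α × α) g = (nF G α g : ℂ) * nF G α g := by
  rw [nF_eq, PermChar.piChar, ← Nat.cast_mul, ← Nat.card_prod]
  congr 1
  exact Nat.card_congr ⟨fun x => (⟨x.1.1, congrArg Prod.fst x.2⟩, ⟨x.1.2, congrArg Prod.snd x.2⟩),
    fun x => ⟨(x.1.1, x.2.1), Prod.ext x.1.2 x.2.2⟩, fun x => rfl, fun x => rfl⟩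

theorem piChar_pairs (g : G) :
    PermChar.piChar G (Set.powersetCard α 2) g = ((nP G α g : ℂ) + nT G α g) / 2 := by
  rw [eq_div_iff two_ne_zero, PermChar.piChar, ← Nat.cast_add, ← two_mul_piChar_pairs g]
  push_cast; ring

include h4 in
theorem isIrr : IsIrrCharacter G (chi2 G α) ∧ IsIrrCharacter G (chi3 G α) := by
  classical
  haveI := Fintype.ofFinite (Set.powersetCard α 2)
  have hF := PermChar.isCharacter_piChar (G := G) (Ω := α)
  have hS := PermChar.isCharacter_piChar (G := G) (Ω := α × α)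
  have hQ := PermChar.isCharacter_piChar (G := G) (Ω := Set.powersetCard α 2)
  have h1 : IsCharacter G (fun _ : G => (1 : ℂ)) := isCharacter_of_irr isIrrCharacter_one
  have e2 : chi2 G α = fun g => PermChar.piChar G (Set.powersetCard α 2) g - PermChar.piChar G α g :=
    funext fun g => by rw [piChar_pairs, piChar_points, chi2]
  have e3 : chi3 G α = fun g => PermChar.piChar G (α × α) g - 2 * PermChar.piChar G α g -
      PermChar.piChar G (Set.powersetCard α 2) g + 1 := funext fun g => by
    have h := congrArg (Nat.cast : ℕ → ℂ) (nP_add_nF (α := α) g)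
    push_cast at h
    rw [piChar_pairs, piChar_square, piChar_points, chi3, ← h]
    ring
  have hcl2 : IsClassFunction G (chi2 G α) := by
    rw [e2]; intro g h; simp only [isClassFunction hQ g h, isClassFunction hF g h]
  have hcl3 : IsClassFunction G (chi3 G α) := by
    rw [e3]; intro g h; simp only [isClassFunction hS g h, isClassFunction hQ g h, isClassFunction hF g h]
  obtain ⟨hn2, hn3⟩ := norms (G := G) (α := α) h4
  -- degrees
  have hT1 : nT G α (1 : G) = 0 := by
    rw [nT_eq, Nat.card_eq_zero]; left; exact ⟨fun a => a.2.2 (one_smul G a.1)⟩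
  have hF1 : nF G α (1 : G) = Fintype.card α := by
    rw [nF_eq, ← Nat.card_eq_fintype_card]
    exact Nat.card_congr (Equiv.subtypeUnivEquiv fun a => one_smul G a)
  obtain ⟨m, hm⟩ : ∃ m, nP G α (1 : G) = 2 * m :=
    ⟨_, by rw [← Nat.add_zero (nP G α (1 : G)), ← hT1, ← two_mul_piChar_pairs]⟩
  have hmn : Fintype.card α ≤ m := by
    have h := nP_add_nF (α := α) (1 : G)
    rw [hm, hF1] at h
    nlinarith
  refine ⟨CfsgLib.SL2Char.isIrr_of_int_norm_one hcl2 (fun χ => ?_) hn2 (d := m - Fintype.card α) ?_,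
    CfsgLib.SL2Char.isIrr_of_int_norm_one hcl3 (fun χ => ?_) hn3 (d := m + 1 - Fintype.card α) ?_⟩
  · obtain ⟨a, ha⟩ := classInner_characters_nat hQ (isCharacter_of_irr χ.2)
    obtain ⟨b, hb⟩ := classInner_characters_nat hF (isCharacter_of_irr χ.2)
    refine ⟨(a : ℤ) - b, ?_⟩
    rw [e2]
    push_cast
    rw [← ha, ← hb]
    simp [classInner_eq, sub_mul, Finset.sum_sub_distrib, mul_sub]
  · rw [chi2, hm, hT1, hF1, Nat.cast_sub hmn]; push_cast; ring
  · obtain ⟨a, ha⟩ := classInner_characters_nat hQ (isCharacter_of_irr χ.2)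
    obtain ⟨b, hb⟩ := classInner_characters_nat hF (isCharacter_of_irr χ.2)
    obtain ⟨c, hc⟩ := classInner_characters_nat hS (isCharacter_of_irr χ.2)
    obtain ⟨d, hd⟩ := classInner_characters_nat h1 (isCharacter_of_irr χ.2)
    refine ⟨(c : ℤ) - 2 * b - a + d, ?_⟩
    rw [e3]
    push_cast
    rw [← ha, ← hb, ← hc, ← hd]
    simp only [classInner_eq, sub_mul, add_mul, Finset.sum_sub_distrib, Finset.sum_add_distrib, mul_sub, mul_add,
      one_mul, mul_assoc (2 : ℂ), ← Finset.mul_sum]
    ring
  · rw [chi3, hm, hT1, hF1, Nat.cast_sub (hmn.trans (Nat.le_succ m))]; push_cast; ring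

end CfsgLib.AltPairs
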