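import Mathlib

/-!
# Averages of fixed tuple counts for a four-fold transitive action
-/

set_option autoImplicit false

namespace CfsgLib.AltPairs

variable {G : Type*} [Group G] {α : Type*} [MulAction G α]

/-- The equality pattern of a tuple. -/
def pat {ι α : Type*} [DecidableEq α] (q : ι → α) : ι → ι → Bool := fun i j => decide (q i = q j)

theorem pat_eq_iff {ι α β : Type*} [DecidableEq α] [DecidableEq β] {a : ι → α} {b : ι → β} :
    pat a = pat b ↔ ∀ i j, a i = a j ↔ b i = b j :=
  ⟨fun h i j => decide_eq_decide.1 (congrFun (congrFun h i) j),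
    fun h => funext fun i => funext fun j => decide_eq_decide.2 (h i j)⟩

theorem pat_comp {ι α β : Type*} [DecidableEq α] [DecidableEq β] {a : ι → α} {b : ι → β} (h : pat a = pat b)
    (σ : ι → ι) : pat (fun i => a (σ i)) = pat (fun i => b (σ i)) := by
  rw [pat_eq_iff] at h ⊢
  exact fun i j => h _ _

theorem exists_smul_of_pat [DecidableEq α] [Finite α] [MulAction.IsMultiplyPretransitive G α 4] (h4 : 4 ≤ Nat.card α)
    {ι : Type*} [Fintype ι] (hι : Fintype.card ι ≤ 4) {a b : ι → α} (h : pat a = pat b) :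
    ∃ g : G, ∀ i, g • a i = b i := by
  classical
  rw [pat_eq_iff] at h
  set s := Finset.univ.image a
  have hk : s.card ≤ 4 := Finset.card_image_le.trans (by rwa [Finset.card_univ])
  haveI : MulAction.IsMultiplyPretransitive G α s.card := MulAction.isMultiplyPretransitive_of_le hk h4
  have hsec : ∀ x : Fin s.card, ∃ i, a i = (s.equivFin.symm x : α) := fun x => by
    obtain ⟨i, -, hi⟩ := Finset.mem_image.1 (s.equivFin.symm x).2
    exact ⟨i, hi⟩
  choose sec hsec using hsec
  let ea : Fin s.card ↪ α := ⟨fun x => (s.equivFin.symm x : α), fun x y e => s.equivFin.symm.injective (Subtype.ext e)⟩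
  let eb : Fin s.card ↪ α := ⟨fun x => b (sec x), fun x y e => by
    have := (h (sec x) (sec y)).2 e
    rw [hsec, hsec] at this
    exact s.equivFin.symm.injective (Subtype.ext this)⟩
  obtain ⟨g, hg⟩ := MulAction.exists_smul_eq G ea eb
  refine ⟨g, fun i => ?_⟩
  have hi : a i ∈ s := Finset.mem_image_of_mem _ (Finset.mem_univ i)
  have hx := congrFun (congrArg DFunLike.coe hg) (s.equivFin ⟨a i, hi⟩)
  have h1 : ea (s.equivFin ⟨a i, hi⟩) = a i := congrArg Subtype.val (Equiv.symm_apply_apply _ _)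
  rw [Function.Embedding.smul_apply, h1] at hx
  refine hx.trans ?_
  exact (h _ i).1 (by rw [hsec, Equiv.symm_apply_apply])

/-- The number of tuples with an allowed pattern that `g` permutes as `σ` does. -/
noncomputable def cnt (α : Type*) [MulAction G α] [DecidableEq α] {ι : Type*} (C : (ι → ι → Bool) → Bool)
    (σ : ι → ι) (g : G) : ℕ :=
  Nat.card {q : ι → α // C (pat q) = true ∧ ∀ i, g • q i = q (σ i)}

/-- The number of orbits to be counted, read off from four letters. -/
def npat {ι : Type*} [Fintype ι] [DecidableEq ι] (C : (ι → ι → Bool) → Bool) (σ : ι → ι) : ℕ :=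
  ((Finset.univ.filter fun q : ι → Fin 4 => C (pat q) = true ∧ pat (fun i => q (σ i)) = pat q).image pat).card

theorem cnt_mul_cnt [DecidableEq α] {ι κ : Type*} (C : (ι → ι → Bool) → Bool) (D : (κ → κ → Bool) → Bool)
    (σ : ι → ι) (τ : κ → κ) (g : G) :
    cnt α C σ g * cnt α D τ g = cnt α (fun R : ι ⊕ κ → ι ⊕ κ → Bool =>
      C (fun i j => R (Sum.inl i) (Sum.inl j)) && D (fun i j => R (Sum.inr i) (Sum.inr j))) (Sum.map σ τ) g := by
  rw [cnt, cnt, cnt, ← Nat.card_prod]
  refine Nat.card_congr ⟨fun x => ⟨Sum.elim x.1.1 x.2.1, ?_⟩,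
    fun q => (⟨fun i => q.1 (Sum.inl i), ?_⟩, ⟨fun j => q.1 (Sum.inr j), ?_⟩), fun x => rfl, fun q => ?_⟩
  · refine ⟨Bool.and_eq_true_iff.2 ⟨x.1.2.1, x.2.2.1⟩, ?_⟩
    rintro (i | j)
    · exact x.1.2.2 i
    · exact x.2.2.2 j
  · exact ⟨(Bool.and_eq_true_iff.1 q.2.1).1, fun i => q.2.2 (Sum.inl i)⟩
  · exact ⟨(Bool.and_eq_true_iff.1 q.2.1).2, fun j => q.2.2 (Sum.inr j)⟩
  · exact Subtype.ext (funext fun x => by rcases x with i | j <;> rfl)

/-- The average number of tuples permuted as `σ` is the number of patterns fixed by `σ`. -/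
theorem sum_cnt [Fintype G] [Fintype α] [DecidableEq α] [MulAction.IsMultiplyPretransitive G α 4]
    (h4 : 4 ≤ Fintype.card α) {ι : Type*} [Fintype ι] [DecidableEq ι] (hι : Fintype.card ι ≤ 4)
    (C : (ι → ι → Bool) → Bool) (σ : ι → ι) :
    ∑ g : G, cnt α C σ g = Fintype.card G * npat C σ := by
  classical
  have h4' : 4 ≤ Nat.card α := by rwa [Nat.card_eq_fintype_card]
  set Q := Finset.univ.filter fun q : ι → α => C (pat q) = true ∧ pat (fun i => q (σ i)) = pat q with hQ
  have hstep : ∑ g : G, cnt α C σ g = ∑ q ∈ Q, (Finset.univ.filter fun g : G => ∀ i, g • q i = q (σ i)).card := by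
    simp only [cnt, Nat.card_eq_fintype_card, Fintype.card_subtype, Finset.card_filter]
    rw [Finset.sum_comm, hQ, Finset.sum_filter]
    refine Finset.sum_congr rfl fun q _ => ?_
    split_ifs with h
    · refine Finset.sum_congr rfl fun g _ => ?_
      simp [h.1]
    · refine Finset.sum_eq_zero fun g _ => if_neg fun hg => h ⟨hg.1, ?_⟩
      rw [pat_eq_iff]
      intro i j
      rw [← hg.2 i, ← hg.2 j, smul_left_cancel_iff]
  rw [hstep, ← Finset.sum_fiberwise_of_maps_to (g := pat) (t := Q.image pat)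
    (fun q hq => Finset.mem_image_of_mem _ hq)]
  have hfib : ∀ R ∈ Q.image pat,
      ∑ q ∈ Q.filter (fun q => pat q = R), (Finset.univ.filter fun g : G => ∀ i, g • q i = q (σ i)).card =
        Fintype.card G := by
    intro R hR
    obtain ⟨q₀, hq₀, rfl⟩ := Finset.mem_image.1 hR
    obtain ⟨hC, hσ⟩ := (Finset.mem_filter.1 hq₀).2
    rw [← Finset.card_univ (α := G),
      Finset.card_eq_sum_card_fiberwise (f := fun g : G => fun i => g • q₀ i)
        (t := Q.filter fun q => pat q = pat q₀)]
    · refine Finset.sum_congr rfl fun q hq => ?_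
      obtain ⟨hqQ, hqp⟩ := Finset.mem_filter.1 hq
      obtain ⟨a, ha⟩ := exists_smul_of_pat (G := G) h4' hι hqp.symm
      obtain ⟨b, hb⟩ := exists_smul_of_pat (G := G) h4' hι (Finset.mem_filter.1 hqQ).2.2.symm
      refine Finset.card_equiv ((Equiv.mulLeft b⁻¹).trans (Equiv.mulRight a)) fun g => ?_
      simp only [Equiv.trans_apply, Equiv.coe_mulLeft, Equiv.coe_mulRight, Finset.mem_filter, Finset.mem_univ,
        true_and, funext_iff]
      refine forall_congr' fun i => ?_
      rw [mul_smul, mul_smul, ha, inv_smul_eq_iff, hb]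
    · intro g _
      have hp : pat (fun i => g • q₀ i) = pat q₀ := by
        rw [pat_eq_iff]; intro i j; exact smul_left_cancel_iff g
      refine Finset.mem_filter.2 ⟨Finset.mem_filter.2 ⟨Finset.mem_univ _, by rwa [hp], ?_⟩, hp⟩
      rw [hp, ← hσ, pat_eq_iff]
      intro i j
      exact smul_left_cancel_iff g
  rw [Finset.sum_congr rfl hfib, Finset.sum_const, smul_eq_mul, mul_comm]
  congr 1
  -- patterns are the same on four letters
  rw [npat, hQ]
  congr 1
  obtain ⟨f⟩ : Nonempty (Fin 4 ↪ α) := Function.Embedding.nonempty_of_card_le (by simpa using h4)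
  ext R
  simp only [Finset.mem_image, Finset.mem_filter, Finset.mem_univ, true_and]
  constructor
  · rintro ⟨q, ⟨hC, hq⟩, rfl⟩
    obtain ⟨e⟩ : Nonempty (Set.range q ↪ Fin 4) := Function.Embedding.nonempty_of_card_le (by
      simpa using (Fintype.card_range_le q).trans hι)
    have hp : pat (fun i => e ⟨q i, i, rfl⟩) = pat q := by
      rw [pat_eq_iff]; intro i j; exact e.injective.eq_iff.trans Subtype.ext_iff
    exact ⟨_, ⟨by rwa [hp], by rw [pat_comp hp σ, hq, hp]⟩, hp⟩
  · rintro ⟨q, ⟨hC, hq⟩, rfl⟩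
    have hp : pat (fun i => f (q i)) = pat q := by
      rw [pat_eq_iff]; intro i j; simp
    exact ⟨_, ⟨by rwa [hp], by rw [pat_comp hp σ, hq, hp]⟩, hp⟩

end CfsgLib.AltPairs
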